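import Cfsg.Agent.H79.AW.V4

/-! # S4415, piece 6: `case3` -/

set_option autoImplicit false
set_option linter.all false

namespace Cfsg.Agent.H79.AW

open Subgroup Cfsg Cfsg.Agent.Star.AW

universe u v
variable {G : Type u} [Group G] [Finite G] {W : Type v} [AddCommGroup W] [Module (ZMod 3) W]
  [Finite W] {σ : Representation (ZMod 3) G W} {N : Subgroup G} {b x y : G}

/-- statement of `comm_cent` -/
def CommCent (σ : Representation (ZMod 3) G W) (b : G) : Prop :=
  ∀ x y c : G, QB σ b x y → c * x = x * c → c * y = y * c →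
    c * b * c⁻¹ * b⁻¹ = 1 ∨ c * b * c⁻¹ * b⁻¹ = x ∨ c * b * c⁻¹ * b⁻¹ = y ∨ c * b * c⁻¹ * b⁻¹ = x * y

/-- statement of `fix_dim` -/
def FixDim (σ : Representation (ZMod 3) G W) (b : G) : Prop :=
  ∀ x y : G, QB σ b x y → Module.finrank (ZMod 3) ((LinearMap.ker (σ x - 1) ⊓ LinearMap.ker (σ y - 1) :
      Submodule (ZMod 3) W)) + 3 = Module.finrank (ZMod 3) W

/-- statement of (part of) `weights` -/
def Weights (σ : Representation (ZMod 3) G W) (b : G) : Prop :=
  ∀ x y : G, QB σ b x y → ∃ v : W, v ≠ 0 ∧ σ x v = v ∧ σ y v = -v ∧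
    (∀ w, σ x w = w → σ y w = -w → ∃ c : ZMod 3, w = c • v)

theorem el_comm {A : Subgroup G} (hel : ∀ a ∈ A, a * a = 1) {a c : G} (ha : a ∈ A) (hc : c ∈ A) :
    a * c = c * a := by
  have h1 := hel _ (A.mul_mem ha hc)
  calc a * c = a * c * ((a * c) * (a * c))⁻¹ := by rw [h1]; simp
    _ = c⁻¹ * a⁻¹ := by group
    _ = c * a := by
      rw [inv_eq_of_mul_eq_one_left (hel a ha), inv_eq_of_mul_eq_one_left (hel c hc)]

theorem exists_QB (D : Dat σ N b x y) (A : Subgroup G) [hA : A.Normal] (hAN : A ≤ N)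
    (hel : ∀ a ∈ A, a * a = 1) (hnc : ¬ A ≤ Subgroup.center G) :
    ∃ x' y' : G, x' ∈ A ∧ y' ∈ A ∧ QB σ b x' y' := by
  obtain ⟨a, ha, hab⟩ : ∃ a ∈ A, b * a * b⁻¹ ≠ a := by
    by_contra hcon
    push Not at hcon
    apply hnc
    have hC : (centralizer (A : Set G)).Normal := inferInstance
    have hb : b ∈ centralizer (A : Set G) := by
      rw [mem_centralizer_iff]
      intro a ha
      calc a * b = (b * a * b⁻¹) * b := by rw [hcon a ha]
        _ = b * a := by group
    have hzb : zpowers b ≤ centralizer (A : Set G) := zpowers_le.2 hb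
    have hNC : N ≤ centralizer (A : Set G) := by
      rw [← D.comm]
      exact (commutator_mono le_rfl hzb).trans (commutator_le_right _ _)
    have htop : centralizer (A : Set G) = ⊤ := by
      rw [eq_top_iff, ← D.gen]
      exact sup_le hNC hzb
    rwa [centralizer_eq_top_iff_subset] at htop
  have hb3 := D.b3
  have h1 : b * a * b⁻¹ ∈ A := hA.conj_mem a ha b
  have h2 : b * (b * a * b⁻¹) * b⁻¹ ∈ A := hA.conj_mem _ h1 b
  have h3 : b * (b * (b * a * b⁻¹) * b⁻¹) * b⁻¹ = a := by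
    calc b * (b * (b * a * b⁻¹) * b⁻¹) * b⁻¹ = (b ^ 3) * a * (b ^ 3)⁻¹ := by
          simp only [pow_succ, pow_zero, one_mul, mul_inv_rev, mul_assoc]
      _ = a := by rw [hb3]; simp
  set a1 := b * a * b⁻¹ with ha1
  set a2 := b * a1 * b⁻¹ with ha2
  have hx : a * a1 ∈ A := A.mul_mem ha h1
  have hy : b * (a * a1) * b⁻¹ ∈ A := hA.conj_mem _ hx b
  have hy' : b * (a * a1) * b⁻¹ = a1 * a2 := by
    rw [ha2, ha1]; group
  refine ⟨a * a1, b * (a * a1) * b⁻¹, hx, hy, ⟨D.faith, hb3, D.rk, ?_, hel _ hx, el_comm hel hx hy, rfl, ?_⟩⟩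
  · intro e
    apply hab
    calc a1 = (a * a) * a1 := by rw [hel a ha, one_mul]
      _ = a * (a * a1) := by group
      _ = a := by rw [e, mul_one]
  · rw [hy']
    calc b * (a1 * a2) * b⁻¹ = (b * a1 * b⁻¹) * (b * a2 * b⁻¹) := by group
      _ = a2 * a := by rw [h3]
      _ = a * a2 := el_comm hel h2 ha
      _ = a * (a1 * a1) * a2 := by rw [hel a1 h1, mul_one]
      _ = a * a1 * (a1 * a2) := by group

/-- decomposition of an element of the elementary abelian normal subgroup `A` -/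
theorem decomp (hcc : CommCent σ b) (h : QB σ b x y) (A : Subgroup G) [hA : A.Normal]
    (hel : ∀ a ∈ A, a * a = 1) (hx : x ∈ A) (hy : y ∈ A) {a : G} (ha : a ∈ A) :
    ∃ s ∈ A, ∃ p ∈ QBF.V h, a = s * p ∧ s * b = b * s := by
  have hb3 := h.b3
  have h1 : b * a * b⁻¹ ∈ A := hA.conj_mem a ha b
  have h2 : b * (b * a * b⁻¹) * b⁻¹ ∈ A := hA.conj_mem _ h1 b
  have h3 : b * (b * (b * a * b⁻¹) * b⁻¹) * b⁻¹ = a := by
    calc b * (b * (b * a * b⁻¹) * b⁻¹) * b⁻¹ = (b ^ 3) * a * (b ^ 3)⁻¹ := by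
          simp only [pow_succ, pow_zero, one_mul, mul_inv_rev, mul_assoc]
      _ = a := by rw [hb3]; simp
  set a1 := b * a * b⁻¹ with ha1
  set a2 := b * a1 * b⁻¹ with ha2
  have hp : a * a1 ∈ QBF.V h := by
    have h4 := hcc x y a h (el_comm hel ha hx) (el_comm hel ha hy)
    have h5 : a * b * a⁻¹ * b⁻¹ = a * a1 := by
      rw [inv_eq_of_mul_eq_one_left (hel a ha), ha1]; group
    rw [h5] at h4
    exact h4
  have hp' : a1 * a2 ∈ QBF.V h := by
    have h4 := QBF.V_conj h hp
    have h5 : b * (a * a1) * b⁻¹ = a1 * a2 := by rw [ha2, ha1]; group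
    rwa [h5] at h4
  refine ⟨a * (a1 * a2), A.mul_mem ha (A.mul_mem h1 h2), a1 * a2, hp', ?_, ?_⟩
  · rw [mul_assoc, QBF.V_sq h hp', mul_one]
  · have h4 : b * (a * (a1 * a2)) * b⁻¹ = a * (a1 * a2) := by
      calc b * (a * (a1 * a2)) * b⁻¹ = (b * a * b⁻¹) * ((b * a1 * b⁻¹) * (b * a2 * b⁻¹)) := by group
        _ = a1 * (a2 * a) := by rw [h3]
        _ = (a1 * a2) * a := by group
        _ = a * (a1 * a2) := el_comm hel (A.mul_mem h1 h2) ha
    calc a * (a1 * a2) * b = (b * (a * (a1 * a2)) * b⁻¹) * b := by rw [h4]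
      _ = b * (a * (a1 * a2)) := by group

theorem zmod3_sq (c : ZMod 3) (h : c * c = 1) : c = 1 ∨ c = -1 := by
  revert c; decide

/-- an involution commuting with `b`, `x`, `y` is scalar if `C_W(Q) = 0` -/
theorem scalar_of_comm (hwt : Weights σ b) (h : QB σ b x y)
    (h0 : ∀ w, σ x w = w → σ y w = w → w = 0) {s : G} (hsx : s * x = x * s) (hsy : s * y = y * s)
    (hsb : s * b = b * s) (hs2 : s * s = 1) : σ s = 1 ∨ σ s = -1 := by
  obtain ⟨v, hv0, hxv, hyv, hv⟩ := hwt x y h
  have hmul : ∀ g k : G, ∀ w, σ (g * k) w = σ g (σ k w) := fun g k w => by rw [map_mul]; rfl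
  have hX2 : ∀ w, σ x (σ x w) = w := fun w => by rw [← hmul, h.x2, map_one]; rfl
  have hY2 : ∀ w, σ y (σ y w) = w := fun w => by rw [← hmul, QBF.yy h, map_one]; rfl
  have hXY : ∀ w, σ y (σ x w) = σ x (σ y w) := fun w => by rw [← hmul, ← hmul, h.xy]
  have hsX : ∀ w, σ s (σ x w) = σ x (σ s w) := fun w => by rw [← hmul, ← hmul, hsx]
  have hsY : ∀ w, σ s (σ y w) = σ y (σ s w) := fun w => by rw [← hmul, ← hmul, hsy]
  have hsB : ∀ w, σ s (σ b w) = σ b (σ s w) := fun w => by rw [← hmul, ← hmul, hsb]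
  obtain ⟨c, hc⟩ := hv (σ s v) (by rw [← hsX, hxv]) (by rw [← hsY, hyv, map_neg])
  have hcc : c = 1 ∨ c = -1 := by
    apply zmod3_sq
    have h1 : σ s (σ s v) = v := by rw [← hmul, hs2, map_one]; rfl
    rw [hc, map_smul, hc, smul_smul] at h1
    by_contra hne
    have h2 : (c * c - 1) • v = 0 := by rw [sub_smul, one_smul, h1, sub_self]
    haveI : Fact (Nat.Prime 3) := ⟨by norm_num⟩
    rcases smul_eq_zero.1 h2 with h3 | h3
    · exact hne (sub_eq_zero.1 h3)
    · exact hv0 h3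
  -- the three types
  have t1 : ∀ w, σ x w = w → σ y w = -w → σ s w = c • w := by
    intro w hw1 hw2
    obtain ⟨d, rfl⟩ := hv w hw1 hw2
    rw [map_smul, hc, smul_comm]
  have hbi : ∀ w, σ b (σ b⁻¹ w) = w := fun w => by rw [← hmul, mul_inv_cancel, map_one]; rfl
  have e1 : ∀ w, σ x (σ b⁻¹ w) = σ b⁻¹ (σ y w) := fun w => by
    rw [← hmul, ← hmul, ← h.bx]; congr 2; group
  have e2 : ∀ w, σ y (σ b⁻¹ w) = σ b⁻¹ (σ x (σ y w)) := fun w => by
    rw [← hmul, ← hmul, ← hmul]
    have : y * b⁻¹ = b⁻¹ * (x * y) := by rw [← h.bby]; group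
    rw [this]; simp only [mul_assoc]
  have t2 : ∀ w, σ x w = -w → σ y w = w → σ s w = c • w := by
    intro w hw1 hw2
    have h1 := t1 (σ b⁻¹ w) (by rw [e1, hw2]) (by rw [e2, hw2, hw1, map_neg])
    calc σ s w = σ s (σ b (σ b⁻¹ w)) := by rw [hbi]
      _ = σ b (σ s (σ b⁻¹ w)) := hsB _
      _ = c • w := by rw [h1, map_smul, hbi]
  have t3 : ∀ w, σ x w = -w → σ y w = -w → σ s w = c • w := by
    intro w hw1 hw2
    have h1 := t2 (σ b⁻¹ w) (by rw [e1, hw2, map_neg]) (by rw [e2, hw2, map_neg, hw1, neg_neg])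
    calc σ s w = σ s (σ b (σ b⁻¹ w)) := by rw [hbi]
      _ = σ b (σ s (σ b⁻¹ w)) := hsB _
      _ = c • w := by rw [h1, map_smul, hbi]
  have hall : ∀ w, σ s w = c • w := by
    intro w
    set X := σ x w with hX
    set Y := σ y w with hY
    set Z := σ x (σ y w) with hZ
    have hxZ : σ x Z = Y := hX2 _
    have hyZ : σ y Z = X := by rw [hZ, hXY, hY2]
    have hxX : σ x X = w := hX2 _
    have hyY : σ y Y = w := hY2 _
    have hyX : σ y X = Z := hXY _
    have w0 : w + X + Y + Z = 0 := h0 _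
      (by simp only [map_add, ← hX, hxX, hxZ, ← hZ]; rw [show σ x Y = Z from rfl]; abel)
      (by simp only [map_add, ← hY, hyY, hyZ, hyX]; abel)
    have r1 := t1 (w + X - Y - Z)
      (by simp only [map_add, map_sub, ← hX, hxX, hxZ]; rw [show σ x Y = Z from rfl]; abel)
      (by simp only [map_add, map_sub, ← hY, hyY, hyZ, hyX]; abel)
    have r2 := t2 (w - X + Y - Z)
      (by simp only [map_add, map_sub, ← hX, hxX, hxZ]; rw [show σ x Y = Z from rfl]; abel)
      (by simp only [map_add, map_sub, ← hY, hyY, hyZ, hyX]; abel)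
    have r3 := t3 (w - X - Y + Z)
      (by simp only [map_add, map_sub, ← hX, hxX, hxZ]; rw [show σ x Y = Z from rfl]; abel)
      (by simp only [map_add, map_sub, ← hY, hyY, hyZ, hyX]; abel)
    have h3 : ∀ u : W, (3 : ℤ) • u = 0 := by
      intro u
      have : ((3 : ℤ) : ZMod 3) • u = (3 : ℤ) • u := Int.cast_smul_eq_zsmul _ _ _
      rw [← this]
      have h4 : ((3 : ℤ) : ZMod 3) = 0 := by decide
      rw [h4, zero_smul]
    have hw : w = (w + X - Y - Z) + (w - X + Y - Z) + (w - X - Y + Z) := by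
      have h5 : (w + X - Y - Z) + (w - X + Y - Z) + (w - X - Y + Z) =
          (3 : ℤ) • w + w - (w + X + Y + Z) := by
        have : (3 : ℤ) • w = w + w + w := by
          rw [show (3 : ℤ) = 1 + 1 + 1 by norm_num, add_smul, add_smul, one_smul]
        rw [this]; abel
      rw [h5, h3, w0]; simp
    calc σ s w = σ s ((w + X - Y - Z) + (w - X + Y - Z) + (w - X - Y + Z)) := by rw [← hw]
      _ = c • (w + X - Y - Z) + c • (w - X + Y - Z) + c • (w - X - Y + Z) := by
        rw [map_add, map_add, r1, r2, r3]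
      _ = c • ((w + X - Y - Z) + (w - X + Y - Z) + (w - X - Y + Z)) := by rw [← smul_add, ← smul_add]
      _ = c • w := by rw [← hw]
  rcases hcc with rfl | rfl
  · left
    ext w
    rw [hall w, one_smul]; rfl
  · right
    ext w
    rw [hall w, neg_smul, one_smul]; rfl

/-- `N` centralises `V` if `V` is normal in `G` -/
theorem cent_of_normal (D : Dat σ N b x y) {x' y' : G} (h : QB σ b x' y')
    (hV : ∀ g : G, ∀ v ∈ QBF.V h, g * v * g⁻¹ ∈ QBF.V h) :
    ∀ n ∈ N, n * x' = x' * n ∧ n * y' = y' * n := by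
  have hact : ∀ (g : G) (i : Fin 3), ∃ j : Fin 3, g * (![x', y', x' * y'] i) * g⁻¹ = ![x', y', x' * y'] j := by
    intro g i
    have h1 : ![x', y', x' * y'] i ∈ QBF.V h := by
      fin_cases i
      · exact QBF.xV h
      · exact QBF.yV h
      · exact QBF.xyV h
    have h2 : ![x', y', x' * y'] i ≠ 1 := by
      fin_cases i
      · exact h.x1
      · exact QBF.y1 h
      · exact QBF.xy1 h
    have h3 := hV g _ h1
    rcases h3 with h3 | h3 | h3 | h3
    · exfalso
      apply h2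
      calc ![x', y', x' * y'] i = g⁻¹ * (g * (![x', y', x' * y'] i) * g⁻¹) * g := by group
        _ = 1 := by rw [h3]; group
    · exact ⟨0, h3⟩
    · exact ⟨1, h3⟩
    · exact ⟨2, h3⟩
  have hinj : Function.Injective ![x', y', x' * y'] := by
    have h1 := QBF.ne h
    have h2 := h.x1
    have h3 := QBF.y1 h
    intro i j hij
    fin_cases i <;> fin_cases j <;> simp at hij ⊢
    · exact h1 hij
    · exact h3 hij
    · exact h1 hij.symm
    · exact h2 hij
    · exact h3 hij
    · exact h2 hij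
  have key := triv_act (N := N) (b := b) ![x', y', x' * y'] hinj (fun g t => g * t * g⁻¹) (fun i => by simp)
    (fun g k i => by group) hact D.normal D.cop D.b3 (by
      show b * x' * b⁻¹ ≠ x'
      rw [h.bx]; exact (QBF.ne h).symm)
  intro n hn
  have h1 : n * x' * n⁻¹ = x' := key n hn 0
  have h2 : n * y' * n⁻¹ = y' := key n hn 1
  constructor
  · calc n * x' = (n * x' * n⁻¹) * n := by group
      _ = x' * n := by rw [h1]
  · calc n * y' = (n * y' * n⁻¹) * n := by group
      _ = y' * n := by rw [h2]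

theorem le_V_of_normal (hcc : CommCent σ b) (D : Dat σ N b x y) {x' y' : G} (h : QB σ b x' y')
    (hcen : ∀ n ∈ N, n * x' = x' * n ∧ n * y' = y' * n) : N ≤ QBF.V h :=
  le_of_comm D.comm (fun v hv => QBF.V_conj h hv) D.b3
    (fun n hn => hcc x' y' n h (hcen n hn).1 (hcen n hn).2)

/-- dimension 3 -/
theorem case3' (hcc : CommCent σ b) (hfd : FixDim σ b) (hwt : Weights σ b)
    (D : Dat σ N b x y) (A : Subgroup G) [hA : A.Normal] (hAN : A ≤ N)
    (hel : ∀ a ∈ A, a * a = 1) (hnc : ¬ A ≤ Subgroup.center G)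
    (h3 : Module.finrank (ZMod 3) W = 3) :
    (∀ n ∈ N, n * n = 1) ∧ Nat.card N = 4 := by
  obtain ⟨x', y', hx', hy', h⟩ := exists_QB D A hAN hel hnc
  have h0 : ∀ w, σ x' w = w → σ y' w = w → w = 0 := by
    intro w hw1 hw2
    have h1 := hfd x' y' h
    rw [h3] at h1
    have h2 : Module.finrank (ZMod 3) ((LinearMap.ker (σ x' - 1) ⊓ LinearMap.ker (σ y' - 1) :
      Submodule (ZMod 3) W)) = 0 := by omega
    have h4 := Submodule.finrank_eq_zero.1 h2
    have h5 : w ∈ (LinearMap.ker (σ x' - 1) ⊓ LinearMap.ker (σ y' - 1) : Submodule (ZMod 3) W) := by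
      refine Submodule.mem_inf.2 ⟨?_, ?_⟩
      · rw [LinearMap.mem_ker, LinearMap.sub_apply, hw1]; exact sub_self w
      · rw [LinearMap.mem_ker, LinearMap.sub_apply, hw2]; exact sub_self w
    rw [h4] at h5
    exact (Submodule.mem_bot _).1 h5
  -- determinants
  have hdm : ∀ g k : G, LinearMap.det (σ (g * k)) = LinearMap.det (σ g) * LinearMap.det (σ k) :=
    fun g k => by rw [map_mul, map_mul]
  have hd1 : LinearMap.det (σ (1 : G)) = 1 := by rw [map_one, map_one]
  have hdc : ∀ g k : G, LinearMap.det (σ (g * k * g⁻¹)) = LinearMap.det (σ k) := fun g k => by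
    rw [hdm, hdm, mul_comm (LinearMap.det (σ g)), mul_assoc, ← hdm, mul_inv_cancel, hd1, mul_one]
  have hdV : ∀ v ∈ QBF.V h, LinearMap.det (σ v) = 1 := by
    have hself : ∀ v ∈ QBF.V h, LinearMap.det (σ (v * (b * v * b⁻¹))) = 1 := by
      intro v hv
      rw [hdm, hdc, ← hdm, QBF.V_sq h hv, hd1]
    rintro v (rfl | rfl | rfl | rfl)
    · exact hd1
    · have := hself _ (QBF.yV h)
      rw [h.bby] at this
      have e : y' * (v * y') = v := by rw [← mul_assoc, ← h.xy, mul_assoc, QBF.yy h, mul_one]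
      rwa [e] at this
    · have := hself _ (QBF.xyV h)
      rw [QBF.bxy h] at this
      have e : x' * v * x' = v := by rw [h.xy, mul_assoc, h.x2, mul_one]
      rwa [e] at this
    · have := hself _ (QBF.xV h)
      rwa [h.bx] at this
  have hV : ∀ g : G, ∀ v ∈ QBF.V h, g * v * g⁻¹ ∈ QBF.V h := by
    intro g v hv
    have hVA : v ∈ A := by
      rcases hv with rfl | rfl | rfl | rfl
      · exact A.one_mem
      · exact hx'
      · exact hy'
      · exact A.mul_mem hx' hy'
    obtain ⟨s, hs, p, hp, e, hsb⟩ := decomp hcc h A hel hx' hy' (hA.conj_mem v hVA g)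
    have hd := hdc g v
    rw [hdV v hv, e, hdm, hdV p hp, mul_one] at hd
    have hs1 : s = 1 := by
      rcases scalar_of_comm hwt h h0 (el_comm hel hs hx') (el_comm hel hs hy') hsb (hel s hs) with h4 | h4
      · exact D.faith (by rw [h4, map_one])
      · exfalso
        rw [h4] at hd
        have h5 : LinearMap.det (-1 : W →ₗ[ZMod 3] W) = (-1) ^ 3 := by
          have h6 : (-1 : W →ₗ[ZMod 3] W) = (-1 : ZMod 3) • (1 : W →ₗ[ZMod 3] W) := by
            rw [neg_smul, one_smul]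
          rw [h6, LinearMap.det_smul, h3, map_one, mul_one]
        rw [h5] at hd
        revert hd
        decide
    rw [e, hs1, one_mul]
    exact hp
  have hcen := cent_of_normal D h hV
  have hNV := le_V_of_normal hcc D h hcen
  have hVN : QBF.V h ≤ N := by
    rintro v (rfl | rfl | rfl | rfl)
    · exact N.one_mem
    · exact hAN hx'
    · exact hAN hy'
    · exact N.mul_mem (hAN hx') (hAN hy')
  refine ⟨fun n hn => QBF.V_sq h (hNV hn), ?_⟩
  rw [le_antisymm hNV hVN, QBF.card_V]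

end Cfsg.Agent.H79.AW
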