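import Cfsg.Agent.H79.AW.Case3
import Cfsg.Agent.Solv.Frattini

/-! # S4415, piece 6: `case4a` -/

set_option autoImplicit false
set_option linter.all false

namespace Cfsg.Agent.H79.AW

open Subgroup Cfsg Cfsg.Agent.Star.AW

universe u v

open scoped commutatorElement in
/-- criterion for extraspecial 2-groups -/
theorem extraspecial_of {P : Type u} [Group P] [Finite P] (hP : IsPGroup 2 P)
    (hc : ∀ a b : P, a * b * a⁻¹ * b⁻¹ ∈ center P) (hsq : ∀ a : P, a ^ 2 ∈ center P)
    (hcard : Nat.card (center P) = 2) (hna : ∃ a b : P, a * b ≠ b * a) : IsExtraspecial 2 P := by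
  haveI : Fact (Nat.Prime 2) := ⟨Nat.prime_two⟩
  have hle : commutator P ≤ center P := by
    rw [commutator_def, Subgroup.commutator_le]
    intro a _ b _
    exact hc a b
  have hne : commutator P ≠ ⊥ := by
    intro h
    obtain ⟨a, b, hab⟩ := hna
    apply hab
    have h2 : ⁅a, b⁆ ∈ commutator P := Subgroup.commutator_mem_commutator (Subgroup.mem_top a) (Subgroup.mem_top b)
    rwa [h, Subgroup.mem_bot, commutatorElement_eq_one_iff_mul_comm] at h2
  have heq : commutator P = center P := by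
    refine Subgroup.eq_of_le_of_card_ge hle ?_
    have h1 : Nat.card (commutator P) ∣ 2 := by rw [← hcard]; exact Subgroup.card_dvd_of_le hle
    rcases (Nat.dvd_prime Nat.prime_two).mp h1 with h2 | h2
    · exact absurd (Subgroup.card_eq_one.mp h2) hne
    · rw [h2, hcard]
  refine ⟨⟨hP, ?_, heq⟩, hcard⟩
  apply le_antisymm
  · exact Cfsg.Agent.Solv.frattini_le_of_elementary_quotient (p := 2) _ hle hsq
  · rw [← heq]
    exact Cfsg.Agent.Solv.commutator_le_frattini_of_pGroup hP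

/-- index two from a sign -/
theorem card_eq_two_mul {G : Type*} [Group G] {A B : Subgroup G} (hAB : A ≤ B) {u : G} (hu : u ∈ B)
    (huA : u ∉ A) (h : ∀ n ∈ B, n ∉ A → n * u ∈ A) : Nat.card B = Nat.card A * 2 := by
  have h1 : (A.subgroupOf B).index = 2 := by
    rw [Subgroup.index_eq_two_iff]
    refine ⟨⟨u, hu⟩, ?_⟩
    rintro ⟨n, hn⟩
    simp only [Subgroup.mem_subgroupOf, MulMemClass.mk_mul_mk]
    by_cases hnA : n ∈ A
    · right
      exact ⟨hnA, fun h2 => huA (by simpa using A.mul_mem (A.inv_mem hnA) h2)⟩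
    · left
      exact ⟨h n hn hnA, hnA⟩
  have h2 := Subgroup.card_mul_index (A.subgroupOf B)
  rw [h1, Nat.card_congr (Subgroup.subgroupOfEquivOfLe hAB).toEquiv] at h2
  exact h2.symm

variable {G : Type u} [Group G] [Finite G] {W : Type v} [AddCommGroup W] [Module (ZMod 3) W]
  [Finite W] {σ : Representation (ZMod 3) G W} {N : Subgroup G} {b x y : G}

theorem V_tri (h : QB σ b x y) {v : G} (hv : v ∈ QBF.V h) :
    v * (b * v * b⁻¹) = b * (b * v * b⁻¹) * b⁻¹ := by
  rcases hv with rfl | rfl | rfl | rfl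
  · group
  · rw [h.bx, h.bby]
  · rw [h.bby, QBF.bxy h, ← mul_assoc, ← h.xy, mul_assoc, QBF.yy h, mul_one]
  · rw [QBF.bxy h, h.bx, h.xy, mul_assoc, h.x2, mul_one]

/-- the group-theoretic situation of `case4a` -/
structure C4 (N A : Subgroup G) (b z : G) (h : QB σ b x y) : Prop where
  nN : N.Normal
  nA : A.Normal
  cop : (Nat.card N).Coprime 3
  comm : ⁅N, zpowers b⁆ = N
  AN : A ≤ N
  el : ∀ a ∈ A, a * a = 1
  VA : QBF.V h ≤ A
  zA : z ∈ A
  zc : ∀ g, g * z = z * g
  zV : z ∉ QBF.V h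
  key : ∀ s ∈ N, s * b = b * s → s = 1 ∨ s = z
  Ael : ∀ a ∈ A, a ∈ QBF.V h ∨ z * a ∈ QBF.V h
  cc : ∀ c, c * x = x * c → c * y = y * c → c * b * c⁻¹ * b⁻¹ ∈ QBF.V h

namespace C4

variable {A : Subgroup G} {z : G} {h : QB σ b x y} (C : C4 N A b z h)
include C

theorem zz : z * z = 1 := C.el z C.zA

theorem z1 : z ≠ 1 := fun e => C.zV (e ▸ (QBF.V h).one_mem)

theorem hC {c : G} (hc : c ∈ N) (hx : c * x = x * c) (hy : c * y = y * c) :
    c ∈ QBF.V h ∨ z * c ∈ QBF.V h := by
  have hq0 := C.cc c hx hy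
  set q0 := c * b * c⁻¹ * b⁻¹ with hq0'
  have hq : b * q0 * b⁻¹ ∈ QBF.V h := QBF.V_conj h hq0
  set q := b * q0 * b⁻¹ with hq'
  have hcq0 := QBF.comm_V h hx hy hq0
  have hcq := QBF.comm_V h hx hy hq
  have h1 : c * b = q0 * b * c := by rw [hq0']; group
  have h2 : q * b = b * q0 := by rw [hq']; group
  have h3 : q0 * q = b * q * b⁻¹ := V_tri h hq0
  have h4 : (c * q) * b = b * (c * q) := by
    calc (c * q) * b = c * (q * b) := by group
      _ = (c * b) * q0 := by rw [h2]; group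
      _ = q0 * b * (c * q0) := by rw [h1]; group
      _ = q0 * (b * q0) * c := by rw [hcq0]; group
      _ = (q0 * q) * b * c := by rw [← h2]; group
      _ = b * (q * c) := by rw [h3]; group
      _ = b * (c * q) := by rw [hcq]
  have h5 : c * q ∈ N := N.mul_mem hc (C.AN (C.VA hq))
  rcases C.key _ h5 h4 with h6 | h6
  · left
    rw [eq_inv_of_mul_eq_one_left h6]
    exact (QBF.V h).inv_mem hq
  · right
    have h7 : z * c = q⁻¹ := by
      calc z * c = z * ((c * q) * q⁻¹) := by group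
        _ = (z * z) * q⁻¹ := by rw [h6]; group
        _ = q⁻¹ := by rw [C.zz, one_mul]
    rw [h7]
    exact (QBF.V h).inv_mem hq

theorem mem_A {c : G} (hc : c ∈ N) (hx : c * x = x * c) (hy : c * y = y * c) : c ∈ A := by
  rcases C.hC hc hx hy with h1 | h1
  · exact C.VA h1
  · have h2 := A.mul_mem C.zA (C.VA h1)
    rwa [← mul_assoc, C.zz, one_mul] at h2

theorem card_A : Nat.card A = 8 := by
  have h1 := card_eq_two_mul C.VA C.zA C.zV (fun n hn hnV => by
    rcases C.Ael n hn with h2 | h2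
    · exact absurd h2 hnV
    · rwa [C.zc n])
  rw [h1, QBF.card_V]

theorem sign {n : G} (hn : n ∈ N) {v : G} (hv : v ∈ QBF.V h) : n * v * n⁻¹ = v ∨ n * v * n⁻¹ = z * v := by
  by_cases hv1 : v = 1
  · left; rw [hv1]; group
  have hinj : Function.Injective ![x, y, x * y] := by
    have h1 := QBF.ne h
    have h2 := h.x1
    have h3 := QBF.y1 h
    intro i j hij
    fin_cases i <;> fin_cases j <;> simp at hij ⊢
    · exact h1 hij
    · exact h3 hij
    · exact h1 hij.symm
    · exact h2 hij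
    · exact h3 hij
    · exact h2 hij
  have hqV : ∀ i, ![x, y, x * y] i ∈ QBF.V h := by
    intro i
    fin_cases i
    · exact QBF.xV h
    · exact QBF.yV h
    · exact QBF.xyV h
  have hq1 : ∀ i, ![x, y, x * y] i ≠ 1 := by
    intro i
    fin_cases i
    · exact h.x1
    · exact QBF.y1 h
    · exact QBF.xy1 h
  have hVq : ∀ v ∈ QBF.V h, v ≠ 1 → ∃ i, v = ![x, y, x * y] i := by
    rintro v (rfl | rfl | rfl | rfl) h1
    · exact absurd rfl h1
    · exact ⟨0, rfl⟩
    · exact ⟨1, rfl⟩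
    · exact ⟨2, rfl⟩
  set q : Fin 3 → G := ![x, y, x * y] with hq
  let f : Fin 3 → Set G := fun i => {q i, z * q i}
  have hf : Function.Injective f := by
    intro i j hij
    have h1 : q i ∈ f j := by rw [← hij]; exact Or.inl rfl
    rcases h1 with h1 | h1
    · exact hinj h1
    · exfalso
      apply C.zV
      have h2 : z = q i * (q j)⁻¹ := by rw [show q i = z * q j from h1]; group
      rw [h2]
      exact (QBF.V h).mul_mem (hqV i) ((QBF.V h).inv_mem (hqV j))
  let act : G → Set G → Set G := fun g T => (fun t => g * t * g⁻¹) '' T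
  have hzg : ∀ g t, g * (z * t) * g⁻¹ = z * (g * t * g⁻¹) := fun g t => by
    rw [← mul_assoc g z t, C.zc g]; group
  have hactf : ∀ g i, act g (f i) = {g * q i * g⁻¹, z * (g * q i * g⁻¹)} := by
    intro g i
    show (fun t => g * t * g⁻¹) '' {q i, z * q i} = _
    rw [Set.image_pair, hzg]
  have hact : ∀ g i, ∃ j, act g (f i) = f j := by
    intro g i
    have h1 : g * q i * g⁻¹ ∈ A := C.nA.conj_mem _ (C.VA (hqV i)) g
    rcases C.Ael _ h1 with h2 | h2
    · obtain ⟨j, hj⟩ := hVq _ h2 (by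
        intro e
        apply hq1 i
        calc q i = g⁻¹ * (g * q i * g⁻¹) * g := by group
          _ = 1 := by rw [e]; group)
      exact ⟨j, by rw [hactf, hj]⟩
    · obtain ⟨j, hj⟩ := hVq _ h2 (by
        intro e
        apply C.zV
        have e1 : g * q i * g⁻¹ = z := by
          calc g * q i * g⁻¹ = (z * z) * (g * q i * g⁻¹) := by rw [C.zz, one_mul]
            _ = z * (z * (g * q i * g⁻¹)) := by group
            _ = z := by rw [e, mul_one]
        have e2 : q i = z := by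
          calc q i = g⁻¹ * (g * q i * g⁻¹) * g := by group
            _ = g⁻¹ * (z * g) := by rw [e1]; group
            _ = z := by rw [← C.zc g]; group
        rw [← e2]; exact hqV i)
      refine ⟨j, ?_⟩
      rw [hactf, hj]
      have e1 : g * q i * g⁻¹ = z * q j := by
        rw [← hj, ← mul_assoc z z, C.zz, one_mul]
      rw [e1, Set.pair_comm]
  have key := triv_act (N := N) (b := b) f hf act (fun i => by rw [hactf]; simp [f])
    (fun g k i => by
      show (fun t => (g * k) * t * (g * k)⁻¹) '' (f i) = (fun t => g * t * g⁻¹) '' ((fun t => k * t * k⁻¹) '' (f i))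
      rw [Set.image_image]
      congr 1
      funext t
      group) hact C.nN C.cop h.b3 (by
      intro e
      have h1 : act b (f 0) = f 1 := by
        rw [hactf]
        show {b * x * b⁻¹, z * (b * x * b⁻¹)} = ({y, z * y} : Set G)
        rw [h.bx]
      rw [h1] at e
      have := hf e
      revert this; decide)
  obtain ⟨i, rfl⟩ := hVq v hv hv1
  have h1 := key n hn i
  rw [hactf] at h1
  have h2 : n * q i * n⁻¹ ∈ f i := by rw [← h1]; exact Or.inl rfl
  exact h2

/-- types -/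
def T (x y n α β : G) : Prop := n * x * n⁻¹ = α * x ∧ n * y * n⁻¹ = β * y

omit C in
theorem T_mul {n m α β γ δ : G} (hγ : ∀ g : G, g * γ = γ * g) (hδ : ∀ g : G, g * δ = δ * g)
    (h1 : T x y n α β) (h2 : T x y m γ δ) : T x y (n * m) (γ * α) (δ * β) := by
  constructor
  · calc n * m * x * (n * m)⁻¹ = n * (m * x * m⁻¹) * n⁻¹ := by group
      _ = (n * γ) * x * n⁻¹ := by rw [h2.1]; group
      _ = γ * (n * x * n⁻¹) := by rw [hγ n]; group
      _ = γ * α * x := by rw [h1.1]; group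
  · calc n * m * y * (n * m)⁻¹ = n * (m * y * m⁻¹) * n⁻¹ := by group
      _ = (n * δ) * y * n⁻¹ := by rw [h2.2]; group
      _ = δ * (n * y * n⁻¹) := by rw [hδ n]; group
      _ = δ * β * y := by rw [h1.2]; group

omit C in
theorem T_rot (h : QB σ b x y) {n α β : G} (hα : ∀ g : G, g * α = α * g) (hβ : ∀ g : G, g * β = β * g)
    (h1 : T x y n α β) : T x y (b * n * b⁻¹) (β * α) α := by
  have h2 : (b * n * b⁻¹) * y * (b * n * b⁻¹)⁻¹ = α * y := by
    calc (b * n * b⁻¹) * y * (b * n * b⁻¹)⁻¹ = b * n * (b⁻¹ * y * b) * n⁻¹ * b⁻¹ := by group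
      _ = b * (n * x * n⁻¹) * b⁻¹ := by
        have : b⁻¹ * y * b = x := by rw [← h.bx]; group
        rw [this]; group
      _ = (b * α) * x * b⁻¹ := by rw [h1.1]; group
      _ = α * (b * x * b⁻¹) := by rw [hα b]; group
      _ = α * y := by rw [h.bx]
  have h3 : (b * n * b⁻¹) * (x * y) * (b * n * b⁻¹)⁻¹ = β * (x * y) := by
    calc (b * n * b⁻¹) * (x * y) * (b * n * b⁻¹)⁻¹ = b * n * (b⁻¹ * (x * y) * b) * n⁻¹ * b⁻¹ := by group
      _ = b * (n * y * n⁻¹) * b⁻¹ := by
        have : b⁻¹ * (x * y) * b = y := by rw [← h.bby]; group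
        rw [this]; group
      _ = (b * β) * y * b⁻¹ := by rw [h1.2]; group
      _ = β * (b * y * b⁻¹) := by rw [hβ b]; group
      _ = β * (x * y) := by rw [h.bby]
  refine ⟨?_, h2⟩
  calc (b * n * b⁻¹) * x * (b * n * b⁻¹)⁻¹ = (b * n * b⁻¹) * ((x * y) * y) * (b * n * b⁻¹)⁻¹ := by
        rw [mul_assoc x y y, QBF.yy h, mul_one]
    _ = ((b * n * b⁻¹) * (x * y) * (b * n * b⁻¹)⁻¹) * ((b * n * b⁻¹) * y * (b * n * b⁻¹)⁻¹) := by group
    _ = β * (x * (y * α)) * y := by rw [h2, h3]; group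
    _ = β * ((x * α) * y) * y := by rw [hα y]; group
    _ = β * α * (x * (y * y)) := by rw [hα x]; group
    _ = β * α * x := by rw [QBF.yy h, mul_one]

theorem T_cases {n : G} (hn : n ∈ N) : T x y n 1 1 ∨ T x y n z 1 ∨ T x y n 1 z ∨ T x y n z z := by
  rcases C.sign hn (QBF.xV h) with h1 | h1 <;> rcases C.sign hn (QBF.yV h) with h2 | h2
  · exact Or.inl ⟨by rw [h1, one_mul], by rw [h2, one_mul]⟩
  · exact Or.inr (Or.inr (Or.inl ⟨by rw [h1, one_mul], h2⟩))
  · exact Or.inr (Or.inl ⟨h1, by rw [h2, one_mul]⟩)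
  · exact Or.inr (Or.inr (Or.inr ⟨h1, h2⟩))

theorem T_A {n m α β : G} (hn : n ∈ N) (hm : m ∈ N) (h1 : T x y n α β) (h2 : T x y m α β) :
    m⁻¹ * n ∈ A := by
  refine C.mem_A (N.mul_mem (N.inv_mem hm) hn) ?_ ?_
  · calc m⁻¹ * n * x = m⁻¹ * (n * x * n⁻¹) * n := by group
      _ = m⁻¹ * (m * x * m⁻¹) * n := by rw [h1.1, h2.1]
      _ = x * (m⁻¹ * n) := by group
  · calc m⁻¹ * n * y = m⁻¹ * (n * y * n⁻¹) * n := by group
      _ = m⁻¹ * (m * y * m⁻¹) * n := by rw [h1.2, h2.2]
      _ = y * (m⁻¹ * n) := by group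

end C4

end Cfsg.Agent.H79.AW
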