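import Cfsg.Agent.H79.AW.Case4

/-! # S4415, piece 6: `case4a`, end -/

set_option autoImplicit false
set_option linter.all false

namespace Cfsg.Agent.H79.AW

open Subgroup Cfsg Cfsg.Agent.Star.AW

universe u v

variable {G : Type u} [Group G] [Finite G] {W : Type v} [AddCommGroup W] [Module (ZMod 3) W]
  [Finite W] {σ : Representation (ZMod 3) G W} {N : Subgroup G} {b x y : G}

namespace C4

variable {A : Subgroup G} {z : G} {h : QB σ b x y} (C : C4 N A b z h)
include C

theorem ex_u : ∃ u ∈ N, T x y u z 1 := by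
  have h1c : ∀ g : G, g * 1 = 1 * g := fun g => by simp
  obtain ⟨n, hn, hnA⟩ : ∃ n ∈ N, n ∉ A := by
    by_contra hcon
    push Not at hcon
    have h1 : N ≤ QBF.V h := le_of_comm C.comm (fun v hv => QBF.V_conj h hv) h.b3 (fun n hn =>
      C.cc n (el_comm C.el (hcon n hn) (C.VA (QBF.xV h))) (el_comm C.el (hcon n hn) (C.VA (QBF.yV h))))
    exact C.zV (h1 (C.AN C.zA))
  have hbN : ∀ n ∈ N, b * n * b⁻¹ ∈ N := fun n hn => C.nN.conj_mem n hn b
  rcases C.T_cases hn with h1 | h1 | h1 | h1
  · exfalso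
    apply hnA
    refine C.mem_A hn ?_ ?_
    · calc n * x = (n * x * n⁻¹) * n := by group
        _ = x * n := by rw [h1.1, one_mul]
    · calc n * y = (n * y * n⁻¹) * n := by group
        _ = y * n := by rw [h1.2, one_mul]
  · exact ⟨n, hn, h1⟩
  · have h2 := T_rot h h1c C.zc h1
    rw [mul_one] at h2
    exact ⟨_, hbN n hn, h2⟩
  · have h2 := T_rot h C.zc C.zc h1
    rw [C.zz] at h2
    have h3 := T_rot h h1c C.zc h2
    rw [mul_one] at h3
    exact ⟨_, hbN _ (hbN n hn), h3⟩

/-- the three elements -/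
theorem ex_uvw : ∃ u ∈ N, T x y u z 1 ∧ T x y (b * u * b⁻¹) z z ∧
    T x y (b * (b * u * b⁻¹) * b⁻¹) 1 z := by
  obtain ⟨u, hu, h1⟩ := C.ex_u
  have h1c : ∀ g : G, g * 1 = 1 * g := fun g => by simp
  have h2 := T_rot h C.zc h1c h1
  rw [one_mul] at h2
  have h3 := T_rot h C.zc C.zc h2
  rw [C.zz] at h3
  exact ⟨u, hu, h1, h2, h3⟩

theorem ne_of (g : G) : z * g ≠ g := fun e => C.z1 (by simpa using e)

theorem card_N : Nat.card N = 32 := by
  obtain ⟨u, hu, T1, T2, T3⟩ := C.ex_uvw
  set w := b * (b * u * b⁻¹) * b⁻¹ with hw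
  have hwN : w ∈ N := C.nN.conj_mem _ (C.nN.conj_mem _ hu b) b
  have hxV := QBF.xV h
  have hyV := QBF.yV h
  let C1 : Subgroup G := N ⊓ centralizer {x}
  have hC1 : ∀ n, n ∈ C1 ↔ n ∈ N ∧ n * x = x * n := by
    intro n
    constructor
    · rintro ⟨h1, h2⟩
      exact ⟨h1, (mem_centralizer_iff.1 h2 x rfl).symm⟩
    · rintro ⟨h1, h2⟩
      refine ⟨h1, mem_centralizer_iff.2 ?_⟩
      intro t ht
      rw [Set.mem_singleton_iff] at ht
      rw [ht]; exact h2.symm
  have hconj : ∀ n t : G, n * t * n⁻¹ = t ↔ n * t = t * n := by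
    intro n t
    constructor
    · intro e
      calc n * t = (n * t * n⁻¹) * n := by group
        _ = t * n := by rw [e]
    · intro e; rw [e]; group
  have h1 : Nat.card N = Nat.card C1 * 2 := by
    refine card_eq_two_mul inf_le_left hu ?_ ?_
    · intro h2
      have h3 := (hconj u x).2 ((hC1 u).1 h2).2
      rw [T1.1] at h3
      exact C.ne_of x h3
    · intro n hn hnC
      rw [hC1]
      refine ⟨N.mul_mem hn hu, (hconj _ _).1 ?_⟩
      have h2 : n * x * n⁻¹ = z * x := by
        rcases C.sign hn hxV with h3 | h3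
        · exact absurd ((hC1 n).2 ⟨hn, (hconj _ _).1 h3⟩) hnC
        · exact h3
      calc n * u * x * (n * u)⁻¹ = n * (u * x * u⁻¹) * n⁻¹ := by group
        _ = (n * z) * x * n⁻¹ := by rw [T1.1]; group
        _ = z * (n * x * n⁻¹) := by rw [C.zc n]; group
        _ = (z * z) * x := by rw [h2]; group
        _ = x := by rw [C.zz, one_mul]
  have h2 : Nat.card C1 = Nat.card A * 2 := by
    refine card_eq_two_mul (u := w) ?_ ?_ ?_ ?_
    · intro a ha
      exact (hC1 a).2 ⟨C.AN ha, el_comm C.el ha (C.VA hxV)⟩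
    · exact (hC1 w).2 ⟨hwN, (hconj _ _).1 (by rw [T3.1, one_mul])⟩
    · intro hwA
      have h3 := (hconj w y).2 (el_comm C.el hwA (C.VA hyV))
      rw [T3.2] at h3
      exact C.ne_of y h3
    · intro n hn hnA
      obtain ⟨hnN, hnx⟩ := (hC1 n).1 hn
      have h3 : n * y * n⁻¹ = z * y := by
        rcases C.sign hnN hyV with h3 | h3
        · exact absurd (C.mem_A hnN hnx ((hconj _ _).1 h3)) hnA
        · exact h3
      refine C.mem_A (N.mul_mem hnN hwN) ?_ ?_
      · have h4 := (hconj w x).1 (by rw [T3.1, one_mul])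
        calc n * w * x = n * (w * x) := by group
          _ = (n * x) * w := by rw [h4]; group
          _ = x * (n * w) := by rw [hnx]; group
      · apply (hconj _ _).1
        calc n * w * y * (n * w)⁻¹ = n * (w * y * w⁻¹) * n⁻¹ := by group
          _ = (n * z) * y * n⁻¹ := by rw [T3.2]; group
          _ = z * (n * y * n⁻¹) := by rw [C.zc n]; group
          _ = (z * z) * y := by rw [h3]; group
          _ = y := by rw [C.zz, one_mul]
  rw [h1, h2, C.card_A]

/-- an element of `N` commuting with all of `N` is in `{1,z}` -/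
theorem center_N {n : G} (hn : n ∈ N) (hc : ∀ m ∈ N, n * m = m * n) : n = 1 ∨ n = z := by
  obtain ⟨u, hu, T1, T2, T3⟩ := C.ex_uvw
  set w := b * (b * u * b⁻¹) * b⁻¹ with hw
  have hwN : w ∈ N := C.nN.conj_mem _ (C.nN.conj_mem _ hu b) b
  have key : ∀ v ∈ QBF.V h, (∀ m ∈ N, v * m = m * v) → v = 1 := by
    rintro v hv hv'
    have e1 : ∀ m ∈ N, m * v * m⁻¹ = v := fun m hm => by rw [← hv' m hm]; group
    rcases hv with rfl | rfl | rfl | rfl
    · rfl
    · exfalso
      have := e1 u hu
      rw [T1.1] at this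
      exact C.ne_of _ this
    · exfalso
      have := e1 w hwN
      rw [T3.2] at this
      exact C.ne_of _ this
    · exfalso
      have := e1 w hwN
      have e2 : w * (x * y) * w⁻¹ = z * (x * y) := by
        calc w * (x * y) * w⁻¹ = (w * x * w⁻¹) * (w * y * w⁻¹) := by group
          _ = x * z * y := by rw [T3.1, T3.2]; group
          _ = z * (x * y) := by rw [C.zc x]; group
      rw [e2] at this
      exact C.ne_of _ this
  rcases C.hC hn (hc x (C.AN (C.VA (QBF.xV h)))) (hc y (C.AN (C.VA (QBF.yV h)))) with h1 | h1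
  · exact Or.inl (key n h1 hc)
  · right
    have h2 := key _ h1 (fun m hm => by
      calc z * n * m = z * (n * m) := by group
        _ = (z * m) * n := by rw [hc m hm]; group
        _ = m * (z * n) := by rw [← C.zc m]; group)
    calc n = (z * z) * n := by rw [C.zz, one_mul]
      _ = z * (z * n) := by group
      _ = z := by rw [h2, mul_one]

theorem comm_mem {n m : G} (hn : n ∈ N) (hm : m ∈ N) : n * m * n⁻¹ * m⁻¹ = 1 ∨ n * m * n⁻¹ * m⁻¹ = z := by
  obtain ⟨u, hu, T1, T2, T3⟩ := C.ex_uvw
  have hbN : ∀ n ∈ N, b * n * b⁻¹ ∈ N := fun n hn => C.nN.conj_mem n hn b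
  set v := b * u * b⁻¹ with hv
  set w := b * v * b⁻¹ with hw
  have hvN : v ∈ N := hbN u hu
  have hwN : w ∈ N := hbN v hvN
  have hzcen : zpowers z ≤ center G := by
    rw [zpowers_le, mem_center_iff]
    exact C.zc
  haveI hZn : (zpowers z).Normal := by
    constructor
    intro t ht g
    have h1 : g * t * g⁻¹ = t := by
      rw [mem_center_iff.mp (hzcen ht) g]; group
    rwa [h1]
  let π := QuotientGroup.mk' (zpowers z)
  have hπ : ∀ t, π t = 1 ↔ t = 1 ∨ t = z := by
    intro t
    have h1 : π t = 1 ↔ t ∈ zpowers z := QuotientGroup.eq_one_iff t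
    rw [h1]
    constructor
    · intro ht
      obtain ⟨k, rfl⟩ := mem_zpowers_iff.1 ht
      have hz2 : z ^ (2 : ℤ) = 1 := by rw [zpow_ofNat, pow_two, C.zz]
      rcases Int.even_or_odd' k with ⟨j, rfl | rfl⟩
      · left
        rw [zpow_mul, hz2, one_zpow]
      · right
        rw [zpow_add, zpow_mul, hz2, one_zpow, one_mul, zpow_one]
    · rintro (rfl | rfl)
      · exact one_mem _
      · exact mem_zpowers _
  have hπz : π z = 1 := (hπ z).2 (Or.inr rfl)
  -- `A` is central modulo `z`
  have hA : ∀ n ∈ N, ∀ a ∈ A, Commute (π n) (π a) := by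
    intro n hn a ha
    obtain ⟨e, he, hae⟩ : ∃ e ∈ QBF.V h, π a = π e := by
      rcases C.Ael a ha with h1 | h1
      · exact ⟨a, h1, rfl⟩
      · exact ⟨z * a, h1, by rw [map_mul, hπz, one_mul]⟩
    have h1 : π (n * e * n⁻¹) = π e := by
      rcases C.sign hn he with h2 | h2
      · rw [h2]
      · rw [h2, map_mul, hπz, one_mul]
    rw [hae]
    show π n * π e = π e * π n
    rw [map_mul, map_mul, map_inv] at h1
    calc π n * π e = (π n * π e * (π n)⁻¹) * π n := by group
      _ = π e * π n := by rw [h1]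
  have hzz1 : ∀ g : G, g * z = z * g := C.zc
  have h1c : ∀ g : G, g * 1 = 1 * g := fun g => by simp
  -- `c = (v u)⁻¹ (u v) ∈ A`
  have hTuv : T x y (u * v) 1 z := by
    have := T_mul hzz1 hzz1 T1 T2
    rw [C.zz, mul_one] at this
    exact this
  have hTvu : T x y (v * u) 1 z := by
    have := T_mul hzz1 h1c T2 T1
    rw [C.zz, one_mul] at this
    exact this
  have hcA := C.T_A (N.mul_mem hu hvN) (N.mul_mem hvN hu) hTuv hTvu
  set c := (v * u)⁻¹ * (u * v) with hc
  have hcuv : u * v = v * u * c := by rw [hc]; group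
  have haA := C.T_A hwN (N.mul_mem hu hvN) T3 hTuv
  set a := (u * v)⁻¹ * w with ha
  have hwa : w = u * v * a := by rw [ha]; group
  have hc'A : b * c * b⁻¹ ∈ A := C.nA.conj_mem c hcA b
  set c' := b * c * b⁻¹ with hc'
  have hvw : v * w = w * v * c' := by
    have h1 : b * (u * v) * b⁻¹ = b * (v * u * c) * b⁻¹ := by rw [hcuv]
    have h2 : b * (u * v) * b⁻¹ = v * w := by rw [hw, hv]; group
    have h3 : b * (v * u * c) * b⁻¹ = w * v * c' := by rw [hc', hw, hv]; group
    rw [← h2, h1, h3]
  have hcomm_uv : Commute (π u) (π v) := by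
    have e1 : π v * (π u * π v * π a) = (π u * π v * π a) * π v * π c' := by
      have := congrArg π hvw
      rw [hwa] at this
      simpa only [map_mul, mul_assoc] using this
    have hav := (hA v hvN a haA).eq
    have hc'v := (hA v hvN c' hc'A).eq
    have hc'a : π c' * π a = π a * π c' := (hA c' (C.AN hc'A) a haA).eq
    have e2 : π v * π u = π u * π v * π c' := by
      have e3 : (π v * π u) * (π v * π a) = (π u * π v * π c') * (π v * π a) := by
        calc (π v * π u) * (π v * π a) = π v * (π u * π v * π a) := by group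
          _ = (π u * π v * π a) * π v * π c' := e1
          _ = π u * π v * (π a * π v) * π c' := by group
          _ = π u * π v * (π v * π a) * π c' := by rw [← hav]
          _ = π u * π v * π v * (π a * π c') := by group
          _ = π u * π v * (π v * π c') * π a := by rw [← hc'a]; group
          _ = (π u * π v * π c') * (π v * π a) := by rw [hc'v]; group
      exact mul_right_cancel e3
    have e4 : π u * π v = π v * π u * π c := by
      have := congrArg π hcuv
      simpa only [map_mul] using this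
    have e5 : π c' = π c := by
      have e6 : π c * π c' = 1 := by
        have e7 : π v * π u = π v * π u * (π c * π c') := by
          calc π v * π u = π u * π v * π c' := e2
            _ = π v * π u * (π c * π c') := by rw [e4]; group
        have := mul_left_cancel (a := π v * π u) (b := 1) (c := π c * π c') (by rw [mul_one]; exact e7)
        exact this.symm
      have e8 : π c * π c = 1 := by rw [← map_mul, C.el c hcA, map_one]
      calc π c' = (π c * π c) * π c' := by rw [e8, one_mul]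
        _ = π c * (π c * π c') := by group
        _ = π c := by rw [e6, mul_one]
    -- so `c ∈ {1,z}`
    have e9 : π c = 1 := by
      obtain ⟨e, he, hce⟩ : ∃ e ∈ QBF.V h, π c = π e := by
        rcases C.Ael c hcA with h1 | h1
        · exact ⟨c, h1, rfl⟩
        · exact ⟨z * c, h1, by rw [map_mul π z c, hπz, one_mul]⟩
      have h2 : π (b * e * b⁻¹) = π e := by
        rw [map_mul, map_mul, ← hce, ← map_mul, ← map_mul, ← hc', e5]
      have h3 : π (e⁻¹ * (b * e * b⁻¹)) = 1 := by rw [map_mul, map_inv, h2, inv_mul_cancel]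
      have h4 : e⁻¹ * (b * e * b⁻¹) = 1 := by
        rcases (hπ _).1 h3 with h5 | h5
        · exact h5
        · exfalso
          apply C.zV
          rw [← h5]
          exact (QBF.V h).mul_mem ((QBF.V h).inv_mem he) (QBF.V_conj h he)
      have h5 : b * e * b⁻¹ = e := by
        have := mul_left_cancel (a := e⁻¹) (b := b * e * b⁻¹) (c := e) (by rw [h4, inv_mul_cancel])
        exact this
      rw [hce, QBF.V_fix h he h5, map_one]
    show π u * π v = π v * π u
    rw [e4, e9, mul_one]
  -- every element of `N` is `t * a` with `t ∈ {1, u, v, u v}`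
  have hrep : ∀ n ∈ N, ∃ a ∈ A, π n = π a ∨ π n = π u * π a ∨ π n = π v * π a ∨
      π n = π u * π v * π a := by
    intro n hn
    rcases C.T_cases hn with h1 | h1 | h1 | h1
    · have h2 := C.T_A hn N.one_mem h1 ⟨by simp, by simp⟩
      rw [inv_one, one_mul] at h2
      exact ⟨n, h2, Or.inl rfl⟩
    · refine ⟨_, C.T_A hn hu h1 T1, Or.inr (Or.inl ?_)⟩
      rw [← map_mul]; congr 1; group
    · refine ⟨_, C.T_A hn (N.mul_mem hu hvN) h1 hTuv, Or.inr (Or.inr (Or.inr ?_))⟩
      rw [← map_mul, ← map_mul]; congr 1; group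
    · refine ⟨_, C.T_A hn hvN h1 T2, Or.inr (Or.inr (Or.inl ?_))⟩
      rw [← map_mul]; congr 1; group
  have hgen : ∀ t : G ⧸ zpowers z, Commute t (π u) → Commute t (π v) → (∀ a ∈ A, Commute t (π a)) →
      ∀ n ∈ N, Commute t (π n) := by
    intro t h1 h2 h3 n hn
    obtain ⟨a, ha, h4 | h4 | h4 | h4⟩ := hrep n hn
    · rw [h4]; exact h3 a ha
    · rw [h4]; exact h1.mul_right (h3 a ha)
    · rw [h4]; exact h2.mul_right (h3 a ha)
    · rw [h4]; exact (h1.mul_right h2).mul_right (h3 a ha)
  have hu' : ∀ n ∈ N, Commute (π u) (π n) := hgen _ (Commute.refl _) hcomm_uv (hA u hu)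
  have hv' : ∀ n ∈ N, Commute (π v) (π n) := hgen _ hcomm_uv.symm (Commute.refl _) (hA v hvN)
  have hall := hgen (π n) (hu' n hn).symm (hv' n hn).symm (hA n hn) m hm
  apply (hπ _).1
  have : π n * π m = π m * π n := hall
  rw [map_mul, map_mul, map_mul, map_inv, map_inv, this]
  group

theorem extra : IsExtraspecial 2 ↥N ∧ Nat.card ↥N = 32 := by
  refine ⟨?_, C.card_N⟩
  have hzN : z ∈ N := C.AN C.zA
  have hcenter : ∀ n : ↥N, n ∈ center ↥N ↔ ((n : G) = 1 ∨ (n : G) = z) := by
    intro n
    rw [mem_center_iff]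
    constructor
    · intro hc
      refine C.center_N n.2 (fun m hm => ?_)
      exact (congrArg Subtype.val (hc ⟨m, hm⟩)).symm
    · rintro (h1 | h1) m
      · apply Subtype.ext
        show (m : G) * n = n * m
        rw [h1]; simp
      · apply Subtype.ext
        show (m : G) * n = n * m
        rw [h1]; exact C.zc m
  refine extraspecial_of ?_ ?_ ?_ ?_ ?_
  · exact IsPGroup.of_card (n := 5) (by rw [C.card_N]; norm_num)
  · intro a c
    rw [hcenter]
    exact C.comm_mem a.2 c.2
  · intro a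
    rw [mem_center_iff]
    intro m
    apply Subtype.ext
    show (m : G) * (a ^ 2 : ↥N) = (a ^ 2 : ↥N) * m
    rw [Subgroup.coe_pow, pow_two]
    have h1 := C.comm_mem a.2 m.2
    have h2 : ∃ ζ : G, (∀ g, g * ζ = ζ * g) ∧ ζ * ζ = 1 ∧ (a : G) * m = ζ * m * a := by
      rcases h1 with h1 | h1
      · refine ⟨1, fun g => by simp, by simp, ?_⟩
        calc (a : G) * m = ((a : G) * m * (a : G)⁻¹ * (m : G)⁻¹) * m * a := by group
          _ = 1 * m * a := by rw [h1]
      · refine ⟨z, C.zc, C.zz, ?_⟩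
        calc (a : G) * m = ((a : G) * m * (a : G)⁻¹ * (m : G)⁻¹) * m * a := by group
          _ = z * m * a := by rw [h1]
    obtain ⟨ζ, hζ, hζ2, e⟩ := h2
    symm
    calc (a : G) * a * m = a * (a * m) := by group
      _ = (a * ζ) * m * a := by rw [e]; group
      _ = ζ * (a * m) * a := by rw [hζ]; group
      _ = (ζ * ζ) * m * (a * a) := by rw [e]; group
      _ = m * (a * a) := by rw [hζ2, one_mul]
  · have h1 : center ↥N = zpowers (⟨z, hzN⟩ : ↥N) := by
      apply le_antisymm
      · intro n hn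
        rcases (hcenter n).1 hn with h2 | h2
        · have : n = 1 := Subtype.ext h2
          rw [this]; exact one_mem _
        · have : n = ⟨z, hzN⟩ := Subtype.ext h2
          rw [this]; exact mem_zpowers _
      · rw [zpowers_le, hcenter]
        exact Or.inr rfl
    rw [h1, Nat.card_zpowers, Subgroup.orderOf_mk]
    exact orderOf_eq_prime (by rw [pow_two]; exact C.zz) C.z1
  · obtain ⟨u, hu, T1, -, -⟩ := C.ex_uvw
    refine ⟨⟨u, hu⟩, ⟨x, C.AN (C.VA (QBF.xV h))⟩, fun e => ?_⟩
    have e1 : u * x = x * u := congrArg Subtype.val e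
    have e2 : u * x * u⁻¹ = x := by rw [e1]; group
    rw [T1.1] at e2
    exact C.ne_of x e2

end C4

/-- dimension 4, case alpha -/
theorem case4a' (hcc : CommCent σ b) (hfd : FixDim σ b)
    (D : Dat σ N b x y) (hf4 : ∀ c ∈ N, c * b = b * c → σ c = 1 ∨ σ c = -1)
    (A : Subgroup G) [hA : A.Normal] (hAN : A ≤ N)
    (hel : ∀ a ∈ A, a * a = 1) (hnc : ¬ A ≤ Subgroup.center G)
    (h4 : Module.finrank (ZMod 3) W = 4) :
    Cfsg.IsExtraspecial 2 ↥N ∧ Nat.card ↥N = 32 ∧
      ∃ A : Subgroup G, A ≤ N ∧ Cfsg.IsElementaryAbelian 2 A ∧ Nat.card ↥A = 8 := by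
  obtain ⟨x', y', hx', hy', h⟩ := exists_QB D A hAN hel hnc
  have hVA : QBF.V h ≤ A := by
    rintro v (rfl | rfl | rfl | rfl)
    · exact A.one_mem
    · exact hx'
    · exact hy'
    · exact A.mul_mem hx' hy'
  have hmul : ∀ g k : G, ∀ w, σ (g * k) w = σ g (σ k w) := fun g k w => by rw [map_mul]; rfl
  have hVn : ¬ ∀ g : G, ∀ v ∈ QBF.V h, g * v * g⁻¹ ∈ QBF.V h := by
    intro hV
    set U : Submodule (ZMod 3) W := LinearMap.ker (σ x' - 1) ⊓ LinearMap.ker (σ y' - 1) with hU
    have hUmem : ∀ w, w ∈ U ↔ σ x' w = w ∧ σ y' w = w := by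
      intro w
      rw [hU, Submodule.mem_inf, LinearMap.mem_ker, LinearMap.mem_ker, LinearMap.sub_apply,
        LinearMap.sub_apply, sub_eq_zero, sub_eq_zero]
      exact Iff.rfl
    have hUV : ∀ w ∈ U, ∀ v ∈ QBF.V h, σ v w = w := by
      intro w hw v hv
      obtain ⟨h1, h2⟩ := (hUmem w).1 hw
      rcases hv with rfl | rfl | rfl | rfl
      · rw [map_one]; rfl
      · exact h1
      · exact h2
      · rw [hmul, h2, h1]
    have hinv : ∀ g : G, ∀ w ∈ U, ∀ v ∈ QBF.V h, σ v (σ g w) = σ g w := by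
      intro g w hw v hv
      have h1 := hV g⁻¹ v hv
      rw [inv_inv] at h1
      have h2 := hUV w hw _ h1
      calc σ v (σ g w) = σ (g * (g⁻¹ * v * g)) w := by rw [← hmul]; congr 2; group
        _ = σ g w := by rw [hmul, h2]
    have hfd' := hfd x' y' h
    rw [← hU, h4] at hfd'
    rcases D.irr U (fun g w hw => (hUmem _).2 ⟨hinv g w hw _ (QBF.xV h), hinv g w hw _ (QBF.yV h)⟩) with h1 | h1
    · rw [h1, finrank_bot] at hfd'; omega
    · rw [h1, finrank_top, h4] at hfd'; omega
  push Not at hVn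
  obtain ⟨g, v, hv, hgv⟩ := hVn
  have hga : g * v * g⁻¹ ∈ A := hA.conj_mem v (hVA hv) g
  obtain ⟨z, hz, p, hp, e, hzb⟩ := decomp hcc h A hel hx' hy' hga
  have hz1 : z ≠ 1 := by
    rintro rfl
    rw [e, one_mul] at hgv
    exact hgv hp
  have hσz : σ z = -1 := by
    rcases hf4 z (hAN hz) hzb with h1 | h1
    · exact absurd (D.faith (by rw [h1, map_one])) hz1
    · exact h1
  have hkey : ∀ s ∈ N, s * b = b * s → s = 1 ∨ s = z := by
    intro s hs hsb
    rcases hf4 s hs hsb with h1 | h1
    · exact Or.inl (D.faith (by rw [h1, map_one]))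
    · exact Or.inr (D.faith (by rw [h1, hσz]))
  have hzz : z * z = 1 := hel z hz
  have C : C4 N A b z h :=
    { nN := D.normal
      nA := hA
      cop := D.cop
      comm := D.comm
      AN := hAN
      el := hel
      VA := hVA
      zA := hz
      zc := fun g => D.faith (by rw [map_mul, map_mul, hσz, mul_neg, neg_mul, mul_one, one_mul])
      zV := fun hzV => hz1 (QBF.V_fix h hzV (by rw [← hzb]; group))
      key := hkey
      Ael := fun a ha => by
        obtain ⟨s, hs, q, hq, e1, hsb⟩ := decomp hcc h A hel hx' hy' ha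
        rcases hkey s (hAN hs) hsb with rfl | rfl
        · left; rw [e1, one_mul]; exact hq
        · right; rw [e1, ← mul_assoc, hzz, one_mul]; exact hq
      cc := fun c h1 h2 => hcc x' y' c h h1 h2 }
  obtain ⟨h1, h2⟩ := C.extra
  refine ⟨h1, h2, A, hAN, ⟨⟨⟨fun a c => Subtype.ext (el_comm hel a.2 c.2)⟩⟩, fun a ha => ?_⟩, C.card_A⟩
  rw [pow_two]; exact hel a ha

end Cfsg.Agent.H79.AW
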