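import Cfsg.Agent.Star.AWDef
import Cfsg.Agent.H76.PSolvable
import Cfsg.Agent.ZJ.SolvFact

/-! # S4415, piece 8 -/

set_option autoImplicit false
set_option linter.all false

namespace Cfsg.Agent.H79.AW

open Subgroup Cfsg

universe u

/-- the elements of a four-group -/
theorem four {S : Type*} [Group S] (Q : Set S) (hQ4 : Q.ncard = 4) {q r : S} (h1 : (1 : S) ∈ Q)
    (hq : q ∈ Q) (hr : r ∈ Q) (hqr : q * r ∈ Q) (hq1 : q ≠ 1) (hr1 : r ≠ 1) (hne : q ≠ r)
    (hqr1 : q * r ≠ 1) : ∀ w ∈ Q, w = 1 ∨ w = q ∨ w = r ∨ w = q * r := by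
  classical
  have hfin : Q.Finite := Set.finite_of_ncard_ne_zero (by rw [hQ4]; norm_num)
  have hT : (({1, q, r, q * r} : Finset S)).card = 4 := by
    rw [Finset.card_insert_of_notMem, Finset.card_insert_of_notMem, Finset.card_insert_of_notMem,
      Finset.card_singleton]
    · rw [Finset.mem_singleton]; intro h; exact hq1 (by simpa using h)
    · simp only [Finset.mem_insert, Finset.mem_singleton]
      push Not
      exact ⟨hne, fun h => hr1 (by simpa using h)⟩
    · simp only [Finset.mem_insert, Finset.mem_singleton]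
      push Not
      exact ⟨hq1.symm, hr1.symm, fun h => hqr1 h.symm⟩
  have hsub : ((({1, q, r, q * r} : Finset S)) : Set S) ⊆ Q := by
    intro w hw
    simp only [Finset.coe_insert, Finset.coe_singleton, Set.mem_insert_iff, Set.mem_singleton_iff] at hw
    rcases hw with rfl | rfl | rfl | rfl <;> assumption
  have heq := Set.eq_of_subset_of_ncard_le hsub (by rw [hQ4, Set.ncard_coe_finset, hT]) hfin
  intro w hw
  rw [← heq] at hw
  simpa using hw

theorem Q_le {S : Type u} [Group S] [Finite S] [Group.IsSolvable S]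
    (B : Subgroup S) (hB : Nat.card ↥B = 3) (Q : Subgroup S)
    (hQ : Cfsg.IsElementaryAbelian 2 Q) (hQ4 : Nat.card ↥Q = 4)
    (hBQ : B ≤ Subgroup.normalizer (Q : Set S)) (hBQ' : ¬ B ≤ Subgroup.centralizer (Q : Set S))
    (P : Sylow 3 S) (hBZ : (Subgroup.center ↥(P : Subgroup S)).map (P : Subgroup S).subtype = B) :
    Q ≤ ⁅Cfsg.pPrimeCore 3 S, B⁆ := by
  haveI : Fact (Nat.Prime 3) := ⟨by norm_num⟩
  -- an element moving an element of `Q`
  obtain ⟨b, hb, q, hq, hbq⟩ : ∃ b ∈ B, ∃ q ∈ Q, b * q * b⁻¹ ≠ q := by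
    by_contra hcon
    push Not at hcon
    apply hBQ'
    intro b hb
    rw [Subgroup.mem_centralizer_iff]
    intro q hq
    have := hcon b hb q hq
    calc q * b = (b * q * b⁻¹) * b := by rw [this]
      _ = b * q := by group
  have hb3 : b ^ 3 = 1 := by
    have h1 : (⟨b, hb⟩ : B) ^ Nat.card B = 1 := pow_card_eq_one'
    rw [hB] at h1
    exact congrArg Subtype.val h1
  have hconj : ∀ w ∈ Q, b * w * b⁻¹ ∈ Q := fun w hw =>
    (Subgroup.mem_normalizer_iff.1 (hBQ hb) w).1 hw
  have hsq : ∀ w ∈ Q, w * w = 1 := fun w hw => by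
    have := hQ.2 w hw
    rwa [pow_two] at this
  set r := b * q * b⁻¹ with hr
  have hrQ : r ∈ Q := hconj q hq
  have hq1 : q ≠ 1 := by
    rintro rfl
    apply hbq
    rw [hr]; group
  have hr1 : r ≠ 1 := by
    intro h
    apply hq1
    have : q = b⁻¹ * r * b := by rw [hr]; group
    rw [this, h]; group
  have hqr1 : q * r ≠ 1 := by
    intro h
    apply hbq
    have h2 := hsq q hq
    have : r = q := by
      calc r = (q * q) * r := by rw [h2, one_mul]
        _ = q * (q * r) := by group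
        _ = q := by rw [h, mul_one]
    exact this
  have hfour := four (Q : Set S) (by rw [← hQ4]; exact (Nat.card_coe_set_eq _).symm) (one_mem Q) hq hrQ
    (mul_mem hq hrQ) hq1 hr1 (Ne.symm hbq) hqr1
  have hbr : b * r * b⁻¹ = q * r := by
    have h1 : b * (b * r * b⁻¹) * b⁻¹ = q := by
      have : b * (b * r * b⁻¹) * b⁻¹ = b ^ 3 * q * (b ^ 3)⁻¹ := by
        rw [hr]; simp only [pow_succ, pow_zero, one_mul, mul_inv_rev, mul_assoc]
      rw [this, hb3]; group
    rcases hfour _ (hconj r hrQ) with h | h | h | h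
    · exfalso
      apply hr1
      have : r = b⁻¹ * (b * r * b⁻¹) * b := by group
      rw [this, h]; group
    · exfalso
      rw [h, ← hr] at h1
      exact hbq h1
    · exfalso
      apply hbq
      rw [h, h] at h1
      exact h1
    · exact h
  have hcomm : ∀ a ∈ Q, ∀ c ∈ Q, a * c = c * a := by
    intro a ha c hc
    have h1 := hsq _ (mul_mem ha hc)
    have h2 := hsq a ha
    have h3 := hsq c hc
    calc a * c = a * c * ((c * a) * (c * a)) := by
          rw [hsq _ (mul_mem hc ha), mul_one]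
      _ = a * (c * c) * a * (c * a) := by group
      _ = c * a := by rw [h3, mul_one, h2, one_mul]
  -- `Q ≤ [L,B]` whenever `Q ≤ L`
  have key : ∀ L : Subgroup S, Q ≤ L → Q ≤ ⁅L, B⁆ := by
    intro L hL
    have h1 : ∀ w ∈ Q, w * (b * w * b⁻¹) ∈ ⁅L, B⁆ := by
      intro w hw
      have h2 := Subgroup.commutator_mem_commutator (hL hw) hb
      have h3 : w * (b * w * b⁻¹) = w * b * w⁻¹ * b⁻¹ := by
        have h4 : w⁻¹ = w := inv_eq_of_mul_eq_one_left (hsq w hw)
        rw [h4]; group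
      rw [h3]; exact h2
    have h2 : q * r ∈ ⁅L, B⁆ := h1 q hq
    have h3 : q ∈ ⁅L, B⁆ := by
      have h4 := h1 r hrQ
      rw [hbr, hcomm q hq r hrQ, ← mul_assoc, hsq r hrQ, one_mul] at h4
      exact h4
    have h4 : r ∈ ⁅L, B⁆ := by
      have := mul_mem (inv_mem h3) h2
      rwa [← mul_assoc, inv_mul_cancel, one_mul] at this
    intro w hw
    rcases hfour w hw with rfl | rfl | rfl | rfl
    · exact one_mem _
    · exact h3
    · exact h4
    · exact h2
  refine (key _ ?_)
  -- `Q ≤ K`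
  set K := pPrimeCore 3 S with hK
  set f := QuotientGroup.mk' K with hf
  have hfs : Function.Surjective f := QuotientGroup.mk'_surjective K
  have hps : IsPSolvable 3 (S ⧸ K) := H76.isPSolvable_quotient K (ZJ.isPSolvable_of_isSolvable 3 inferInstance)
  have hcc := H76.centralizer_pCore_le hps (Solv.pPrimeCore_quotient_pPrimeCore 3)
  have hBc : ∀ b ∈ B, f b ∈ pCore 3 (S ⧸ K) := by
    intro b hb
    apply hcc
    rw [Subgroup.mem_centralizer_iff]
    intro u hu
    have hu' := Solv.pCore_le_sylow (P.mapSurjective hfs) hu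
    rw [Sylow.coe_mapSurjective] at hu'
    obtain ⟨s, hs, rfl⟩ := hu'
    rw [← hBZ] at hb
    obtain ⟨z, hz, rfl⟩ := hb
    have := Subgroup.mem_center_iff.1 hz ⟨s, hs⟩
    have h2 := congrArg Subtype.val this
    rw [← map_mul, ← map_mul]
    exact congrArg f h2
  have hQK : ∀ q ∈ Q, ∀ c ∈ B, q * c * q⁻¹ * c⁻¹ ∈ K := by
    intro q hq c hc
    have h1 : q * c * q⁻¹ * c⁻¹ ∈ Q := by
      have h2 := (Subgroup.mem_normalizer_iff.1 (hBQ hc) q⁻¹).1 (inv_mem hq)
      have := mul_mem hq h2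
      have h3 : q * (c * q⁻¹ * c⁻¹) = q * c * q⁻¹ * c⁻¹ := by group
      rwa [h3] at this
    have h2 : f (q * c * q⁻¹ * c⁻¹) ∈ pCore 3 (S ⧸ K) := by
      have h3 := hBc c hc
      have h4 : f (q * c * q⁻¹ * c⁻¹) = (f q * f c * (f q)⁻¹) * (f c)⁻¹ := by
        simp only [map_mul, map_inv]
      rw [h4]
      have hn : (pCore 3 (S ⧸ K)).Normal := inferInstance
      exact mul_mem (hn.conj_mem _ h3 _) (inv_mem h3)
    obtain ⟨k, hk⟩ := (Solv.pCore_isPGroup (G := S ⧸ K) 3) ⟨_, h2⟩
    have hk' : (f (q * c * q⁻¹ * c⁻¹)) ^ 3 ^ k = 1 := congrArg Subtype.val hk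
    have h5 : (f (q * c * q⁻¹ * c⁻¹)) ^ 2 = 1 := by
      rw [← map_pow, pow_two, hsq _ h1, map_one]
    have h6 : f (q * c * q⁻¹ * c⁻¹) = 1 := by
      rw [← orderOf_eq_one_iff]
      have h7 := orderOf_dvd_of_pow_eq_one hk'
      have h8 := orderOf_dvd_of_pow_eq_one h5
      have h9 : Nat.Coprime (3 ^ k) 2 := Nat.Coprime.pow_left _ (by norm_num)
      exact Nat.eq_one_of_dvd_coprimes h9 h7 h8
    rwa [hf, QuotientGroup.mk'_apply, QuotientGroup.eq_one_iff] at h6
  have hQQ : ⁅Q, B⁆ ≤ K := by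
    rw [Subgroup.commutator_le]
    intro q hq c hc
    exact hQK q hq c hc
  exact (key Q le_rfl).trans hQQ

end Cfsg.Agent.H79.AW
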