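import Cfsg.Agent.Star.AWDef
import Cfsg.Agent.H79.AW.QLe

/-! # S4415, piece 6: the four-group and the `S₃`-argument -/

set_option autoImplicit false
set_option linter.all false

namespace Cfsg.Agent.H79.AW

open Subgroup Cfsg Cfsg.Agent.Star.AW

universe u v
variable {G : Type u} [Group G] {W : Type v} [AddCommGroup W] [Module (ZMod 3) W]
  {σ : Representation (ZMod 3) G W} {N : Subgroup G} {b x y : G}

namespace QBF

variable (h : QB σ b x y)
include h

theorem yy : y * y = 1 := by
  rw [← h.bx]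
  calc b * x * b⁻¹ * (b * x * b⁻¹) = b * (x * x) * b⁻¹ := by group
    _ = 1 := by rw [h.x2]; group

theorem bxy : b * (x * y) * b⁻¹ = x := by
  calc b * (x * y) * b⁻¹ = (b * x * b⁻¹) * (b * y * b⁻¹) := by group
    _ = y * (x * y) := by rw [h.bx, h.bby]
    _ = x * (y * y) := by rw [← mul_assoc, ← h.xy, mul_assoc]
    _ = x := by rw [yy h, mul_one]

theorem y1 : y ≠ 1 := by
  intro e
  apply h.x1
  have := h.bx
  rw [e] at this
  calc x = b⁻¹ * (b * x * b⁻¹) * b := by group
    _ = 1 := by rw [this]; group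

theorem ne : x ≠ y := by
  intro e
  have h1 := h.bby
  have h2 := h.bx
  rw [← e] at h1 h2
  rw [h2, h.x2] at h1
  exact h.x1 h1

theorem xy1 : x * y ≠ 1 := by
  intro e
  apply h.x1
  have := bxy h
  rw [e] at this
  rw [← this]; group

/-- the four-group -/
def V : Subgroup G where
  carrier := {g | g = 1 ∨ g = x ∨ g = y ∨ g = x * y}
  one_mem' := Or.inl rfl
  mul_mem' := by
    have hx := h.x2
    have hy := yy h
    have hc := h.xy
    have e1 : x * (x * y) = y := by rw [← mul_assoc, hx, one_mul]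
    have e2 : y * x = x * y := hc.symm
    have e3 : y * (x * y) = x := by rw [← mul_assoc, ← hc, mul_assoc, hy, mul_one]
    have e4 : x * y * x = y := by rw [hc, mul_assoc, hx, mul_one]
    have e5 : x * y * y = x := by rw [mul_assoc, hy, mul_one]
    have e6 : x * y * (x * y) = 1 := by rw [mul_assoc, e3, hx]
    rintro a c (rfl | rfl | rfl | rfl) (rfl | rfl | rfl | rfl) <;>
      simp only [Set.mem_setOf_eq, one_mul, mul_one, hx, hy, e1, e2, e3, e4, e5, e6] <;> tauto
  inv_mem' := by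
    have hx : x⁻¹ = x := inv_eq_of_mul_eq_one_left h.x2
    have hy : y⁻¹ = y := inv_eq_of_mul_eq_one_left (yy h)
    rintro a (rfl | rfl | rfl | rfl)
    · simp
    · simp [hx]
    · simp [hy]
    · simp only [Set.mem_setOf_eq, mul_inv_rev, hx, hy, ← h.xy]; tauto

theorem mem_V {g : G} : g ∈ V h ↔ g = 1 ∨ g = x ∨ g = y ∨ g = x * y := Iff.rfl

theorem xV : x ∈ V h := Or.inr (Or.inl rfl)
theorem yV : y ∈ V h := Or.inr (Or.inr (Or.inl rfl))
theorem xyV : x * y ∈ V h := Or.inr (Or.inr (Or.inr rfl))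

theorem V_sq {g : G} (hg : g ∈ V h) : g * g = 1 := by
  rcases hg with rfl | rfl | rfl | rfl
  · simp
  · exact h.x2
  · exact yy h
  · calc x * y * (x * y) = x * y * (y * x) := by rw [← h.xy]
      _ = x * (y * y) * x := by group
      _ = 1 := by rw [yy h, mul_one, h.x2]

theorem V_inv {g : G} (hg : g ∈ V h) : g⁻¹ = g := inv_eq_of_mul_eq_one_left (V_sq h hg)

theorem V_conj {g : G} (hg : g ∈ V h) : b * g * b⁻¹ ∈ V h := by
  rcases hg with rfl | rfl | rfl | rfl
  · simpa using (V h).one_mem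
  · rw [h.bx]; exact yV h
  · rw [h.bby]; exact xyV h
  · rw [bxy h]; exact xV h

theorem V_fix {g : G} (hg : g ∈ V h) (hb : b * g * b⁻¹ = g) : g = 1 := by
  rcases hg with rfl | rfl | rfl | rfl
  · rfl
  · rw [h.bx] at hb; exact absurd hb.symm (ne h)
  · rw [h.bby] at hb; exact absurd (by simpa using hb) h.x1
  · rw [bxy h] at hb; exact absurd (by simpa using hb.symm) (y1 h)

theorem card_V : Nat.card (V h) = 4 := by
  classical
  have hT : (({1, x, y, x * y} : Finset G)).card = 4 := by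
    rw [Finset.card_insert_of_notMem, Finset.card_insert_of_notMem, Finset.card_insert_of_notMem,
      Finset.card_singleton]
    · rw [Finset.mem_singleton]; intro e; exact h.x1 (by simpa using e)
    · simp only [Finset.mem_insert, Finset.mem_singleton]
      push Not
      exact ⟨ne h, fun e => y1 h (by simpa using e)⟩
    · simp only [Finset.mem_insert, Finset.mem_singleton]
      push Not
      exact ⟨h.x1.symm, (y1 h).symm, (xy1 h).symm⟩
  have heq : ((V h : Subgroup G) : Set G) = ((({1, x, y, x * y} : Finset G)) : Set G) := by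
    ext g
    simp only [Finset.coe_insert, Finset.coe_singleton, Set.mem_insert_iff, Set.mem_singleton_iff]
    exact Iff.rfl
  have h1 : Nat.card (V h) = ((V h : Subgroup G) : Set G).ncard := Nat.card_coe_set_eq _
  rw [h1, heq, Set.ncard_coe_finset, hT]

theorem V_comm {g k : G} (hg : g ∈ V h) (hk : k ∈ V h) : g * k = k * g := by
  have h1 := V_sq h ((V h).mul_mem hg hk)
  have h2 := V_sq h hg
  have h3 := V_sq h hk
  calc g * k = g * k * ((g * k) * (g * k))⁻¹ := by rw [h1]; simp
    _ = k⁻¹ * g⁻¹ := by group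
    _ = k * g := by rw [V_inv h hg, V_inv h hk]

/-- elements commuting with `x` and `y` commute with `V` -/
theorem comm_V {c : G} (hx : c * x = x * c) (hy : c * y = y * c) {g : G} (hg : g ∈ V h) : c * g = g * c := by
  rcases hg with rfl | rfl | rfl | rfl
  · simp
  · exact hx
  · exact hy
  · calc c * (x * y) = (c * x) * y := by group
      _ = x * (c * y) := by rw [hx]; group
      _ = x * y * c := by rw [hy]; group

end QBF

/-- elements of `N` with all `[n,b]` in a `b`-invariant subgroup -/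
theorem le_of_comm {V : Subgroup G} (hcomm : ⁅N, zpowers b⁆ = N) (hbV : ∀ v ∈ V, b * v * b⁻¹ ∈ V)
    (hb : b ^ 3 = 1) (hN : ∀ n ∈ N, n * b * n⁻¹ * b⁻¹ ∈ V) : N ≤ V := by
  have h1 : ∀ k : ℕ, ∀ n ∈ N, n * b ^ k * n⁻¹ * (b ^ k)⁻¹ ∈ V := by
    intro k
    induction k with
    | zero => intro n _; simp
    | succ k ih =>
      intro n hn
      have h2 := V.mul_mem (hN n hn) (hbV _ (ih n hn))
      have h3 : n * b ^ (k + 1) * n⁻¹ * (b ^ (k + 1))⁻¹ =
          n * b * n⁻¹ * b⁻¹ * (b * (n * b ^ k * n⁻¹ * (b ^ k)⁻¹) * b⁻¹) := by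
        rw [pow_succ']; group
      rw [h3]; exact h2
  rw [← hcomm, Subgroup.commutator_le]
  intro n hn c hc
  have hfo : IsOfFinOrder b := isOfFinOrder_iff_pow_eq_one.2 ⟨3, by norm_num, hb⟩
  obtain ⟨k, rfl⟩ := hfo.mem_powers_iff_mem_zpowers.2 hc
  exact h1 k n hn

set_option maxRecDepth 1000000 in
theorem dec1 : ∀ t c : Equiv.Perm (Fin 3), c ^ 3 = 1 → (t * c * t⁻¹ * c⁻¹) ^ 3 = 1 := by decide

set_option maxRecDepth 1000000 in
theorem dec2 : ∀ t c : Equiv.Perm (Fin 3), c ^ 3 = 1 → c ≠ 1 → t * c * t⁻¹ * c⁻¹ = 1 → t ^ 3 = 1 := by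
  decide

/-- `G` acting on three things, `N` a normal `3'`-group, `b` of order 3 acting nontrivially -/
theorem triv_act {α : Type*} (f : Fin 3 → α) (hf : Function.Injective f) (act : G → α → α)
    (act_one : ∀ i, act 1 (f i) = f i) (act_mul : ∀ g k i, act (g * k) (f i) = act g (act k (f i)))
    (hact : ∀ g i, ∃ j, act g (f i) = f j) (hN : N.Normal) (hcop : (Nat.card N).Coprime 3)
    (hb : b ^ 3 = 1) (hb0 : act b (f 0) ≠ f 0) : ∀ n ∈ N, ∀ i, act n (f i) = f i := by
  classical
  choose j hj using hact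
  have hj1 : ∀ i, j 1 i = i := fun i => hf (by rw [← hj, act_one])
  have hjm : ∀ g k i, j (g * k) i = j g (j k i) := fun g k i => hf (by
    rw [← hj, act_mul, hj k, hj g])
  let φ : G →* Equiv.Perm (Fin 3) :=
    { toFun := fun g =>
        { toFun := j g
          invFun := j g⁻¹
          left_inv := fun i => by rw [← hjm, inv_mul_cancel, hj1]
          right_inv := fun i => by rw [← hjm, mul_inv_cancel, hj1] }
      map_one' := by ext1 i; exact hj1 i
      map_mul' := fun g k => by ext1 i; exact hjm g k i }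
  have hφ : ∀ g i, act g (f i) = f (φ g i) := hj
  have hφb : φ b ≠ 1 := by
    intro e
    apply hb0
    rw [hφ, e]; rfl
  have hφb3 : (φ b) ^ 3 = 1 := by rw [← map_pow, hb, map_one]
  have key : ∀ n ∈ N, (φ n) ^ 3 = 1 → φ n = 1 := by
    intro n hn h3
    have h1 : orderOf (φ n) ∣ 3 := orderOf_dvd_of_pow_eq_one h3
    have h2 : orderOf (φ n) ∣ Nat.card N := by
      refine (orderOf_map_dvd φ n).trans ?_
      have := orderOf_dvd_natCard (⟨n, hn⟩ : N)
      rwa [Subgroup.orderOf_mk] at this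
    rw [← orderOf_eq_one_iff]
    exact Nat.eq_one_of_dvd_coprimes hcop h2 h1
  intro n hn i
  have hu : n * b * n⁻¹ * b⁻¹ ∈ N := by
    have h1 : n * b * n⁻¹ * b⁻¹ = n * (b * n⁻¹ * b⁻¹) := by group
    rw [h1]
    exact N.mul_mem hn (hN.conj_mem _ (N.inv_mem hn) b)
  have h1 : φ (n * b * n⁻¹ * b⁻¹) = φ n * φ b * (φ n)⁻¹ * (φ b)⁻¹ := by simp only [map_mul, map_inv]
  have h2 := key _ hu (by rw [h1]; exact dec1 _ _ hφb3)
  rw [h1] at h2
  have h3 := key n hn (dec2 _ _ hφb3 hφb h2)
  rw [hφ, h3]; rfl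

end Cfsg.Agent.H79.AW
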